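/-
The 2-fusion system of `J₃` is simple.
-/
import Cfsg.Agent.Janko3.Structure
import Cfsg.Agent.Fusion.SimpleCriterion
import Cfsg.Agent.Fusion.GroupSimpleWeak

set_option autoImplicit false
set_option maxHeartbeats 1000000

namespace Cfsg.Agent.Janko3

open Cfsg Cfsg.FusionSystem Cfsg.Agent.Fusion
open Cfsg.Spor
open scoped Pointwise

variable {F : Type*} [Field F] [d : F4Data F]

theorem Q_le_S : (CD F).Q ≤ (CD F).S := fun g hg => by
  obtain ⟨i, rfl⟩ := Q_exists hg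
  obtain ⟨j, hj, e⟩ := some_of_not_all (n := 128) (f := fun s => !M4.beq (qM i) (sM2 s))
    (by simpa [qsTest] using Janko1.allFrom_zero qs_ok i.2)
  rw [Bool.not_eq_false'] at e
  rw [((CD F).q_rep i).uniq (by rw [M4.eq_of_beq e]; exact (CD F).s_rep ⟨j, hj⟩)]
  exact s_mem _

theorem S_gen {g : Q3 F} (hg : g ∈ (CD F).S) :
    ∃ a b c, a ∈ (CD F).S ∧ b ∈ (CD F).S ∧ c ∈ (CD F).S ∧ a * a = 1 ∧ b * b = 1 ∧ c * c = 1 ∧ g = a * b * c := by
  obtain ⟨i, rfl⟩ := S_exists hg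
  obtain ⟨a, b, c, ha, hb, hc, ea, eb, ec, e⟩ := (sTest_spec i.2).2.2.2.1
  have hsq : ∀ a (ha : a < 128), sMul (a * 128 + a) = sElOne → (CD F).s ⟨a, ha⟩ * (CD F).s ⟨a, ha⟩ = 1 := by
    intro a ha e
    obtain ⟨ht, e'⟩ := (CD F).s_mul ⟨a, ha⟩ ⟨a, ha⟩
    rw [e', ← (CD F).s_one]
    exact congrArg _ (Fin.ext e)
  refine ⟨_, _, _, s_mem ⟨a, ha⟩, s_mem ⟨b, hb⟩, s_mem ⟨c, hc⟩, hsq a ha ea, hsq b hb eb, hsq c hc ec, ?_⟩
  obtain ⟨h1, e1⟩ := (CD F).s_mul ⟨a, ha⟩ ⟨b, hb⟩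
  obtain ⟨h2, e2⟩ := (CD F).s_mul ⟨_, h1⟩ ⟨c, hc⟩
  rw [e1, e2]
  exact congrArg _ (Fin.ext e.symm)

theorem A_gen {g : Q3 F} (hg : g ∈ (CD F).A) :
    ∃ a b, a ∈ (CD F).A ∧ b ∈ (CD F).A ∧ a * a = 1 ∧ b * b = 1 ∧ g = a * b := by
  obtain ⟨i, rfl⟩ := A_exists hg
  obtain ⟨a, b, ha, hb, ea, eb, e⟩ := (permTest_spec i.2).2.2.2
  have hsq : ∀ a (ha : a < 60), aMul (a * 60 + a) = aElOne → (CD F).a ⟨a, ha⟩ * (CD F).a ⟨a, ha⟩ = 1 := by
    intro a ha e
    obtain ⟨ht, e'⟩ := (CD F).a_mul ⟨a, ha⟩ ⟨a, ha⟩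
    rw [e', ← (CD F).a_one]
    exact congrArg _ (Fin.ext e)
  refine ⟨_, _, a_mem ⟨a, ha⟩, a_mem ⟨b, hb⟩, hsq a ha ea, hsq b hb eb, ?_⟩
  obtain ⟨h1, e1⟩ := (CD F).a_mul ⟨a, ha⟩ ⟨b, hb⟩
  rw [e1]
  exact congrArg _ (Fin.ext e.symm)

theorem centralizer_Q {g : Q3 F} (hg : ∀ q ∈ (CD F).Q, g * q = q * g) : g ∈ (CD F).Q := by
  have hgC : g ∈ Cent F := by
    rw [Subgroup.mem_centralizer_singleton_iff, ← qt_val]
    exact hg _ (qt F).2
  obtain ⟨i, j, rfl⟩ := cent_card_and_forms.2 g hgC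
  have h := Janko1.allFrom_zero cent_ok (show (i : ℕ) * 32 + j < 1920 by omega)
  simp only [centTest, Bool.and_eq_true, Nat.blt_eq] at h
  rw [show ((i : ℕ) * 32 + j) / 32 = i by omega, show ((i : ℕ) * 32 + j) % 32 = j by omega] at h
  obtain ⟨hw, h⟩ := h
  by_cases hi : (i : ℕ) = aElOne
  · rw [show i = ⟨aElOne, misc2.2.2.2.1⟩ from Fin.ext hi, (CD F).a_one, one_mul]
    exact q_mem _
  · exfalso
    have hb : Nat.beq (i : ℕ) aElOne = false := by
      rw [← Bool.not_eq_true]; exact fun e => hi (Nat.eq_of_beq_eq_true e)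
    simp only [hb, Bool.false_and, cond_false, Bool.not_eq_true'] at h
    have r := ((CD F).a_rep i).pmul ((CD F).q_rep j)
    have hne : ∀ {g h : Q3 F} {A B : M4}, Rep g A → Rep h B → Bdd A → Bdd B → g = h →
        M4.beq (cnM A) (cnM B) = true := fun hA hB bA bB e => by
      rw [hA.same (e ▸ hB) bA bB]; simp [M4.beq]
    have k := hne (r.mul ((CD F).q_rep ⟨_, hw⟩)) (((CD F).q_rep ⟨_, hw⟩).mul r)
      (bdd_mulM _ _) (bdd_mulM _ _) (hg _ (q_mem _))
    change M4.beq (pmul _ _) (pmul _ _) = true at k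
    rw [h] at k
    exact Bool.noConfusion k

theorem norm_S {g : Q3 F} (hg : ∀ s ∈ (CD F).S, g * s * g⁻¹ ∈ (CD F).S) : g ∈ Cent F := by
  obtain ⟨-, -, -, -, -, -, -, -, -, -, -, -, -, u, hu, eu⟩ := misc2
  have ht : (CD F).s ⟨u, hu⟩ = tQ F :=
    ((CD F).s_rep _).uniq (by show Rep (tQ F) (sM2 u); rw [eu]; exact tQ_spec.1)
  have hm := hg _ (ht ▸ s_mem (F := F) ⟨u, hu⟩)
  obtain ⟨i, hi⟩ := S_exists hm
  have hcent : ∀ s ∈ (CD F).S, (CD F).s i * s = s * (CD F).s i := by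
    intro s hs
    have hbij : ∃ s' ∈ (CD F).S, g * s' * g⁻¹ = s := by
      have := finite_Q3 (F := F)
      have hinj : Function.Injective fun x : (CD F).S => (⟨g * x * g⁻¹, hg _ x.2⟩ : (CD F).S) := fun a b e =>
        Subtype.ext (by simpa using congrArg Subtype.val e)
      obtain ⟨x, hx⟩ := (Finite.injective_iff_surjective.1 hinj) ⟨s, hs⟩
      exact ⟨x, x.2, congrArg Subtype.val hx⟩
    obtain ⟨s', hs', rfl⟩ := hbij
    have hc : tQ F * s' = s' * tQ F := (Subgroup.mem_centralizer_singleton_iff.1 (S_le hs')).symm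
    rw [hi, show g * tQ F * g⁻¹ * (g * s' * g⁻¹) = g * (tQ F * s') * g⁻¹ by group, hc]
    group
  have he1 : (i : ℕ) ≠ sElOne := fun e => by
    rw [show i = ⟨sElOne, misc2.2.2.2.2.1⟩ from Fin.ext e, (CD F).s_one] at hi
    have h1 : tQ F = 1 := by
      rw [eq_mul_inv_iff_mul_eq, one_mul] at hi
      exact (left_eq_mul.1 hi)
    have := tQ_spec (F := F) |>.2
    rw [h1, orderOf_one] at this
    omega
  have het : sM2 i = tInv := by
    by_contra hne
    obtain ⟨j, hj, hjne⟩ := (sTest_spec i.2).2.2.2.2 he1 hne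
    obtain ⟨_, e1⟩ := (CD F).s_mul i ⟨j, hj⟩
    obtain ⟨_, e2⟩ := (CD F).s_mul ⟨j, hj⟩ i
    have := hcent _ (s_mem ⟨j, hj⟩)
    rw [e1, e2] at this
    exact hjne (congrArg Fin.val ((CD F).s_inj this))
  have hti : (CD F).s i = tQ F := ((CD F).s_rep i).uniq (by rw [het]; exact tQ_spec.1)
  rw [hti] at hi
  rw [Subgroup.mem_centralizer_singleton_iff]
  exact (eq_mul_inv_iff_mul_eq.1 hi).symm

theorem Cent_gen {g : Q3 F} (hg : g ∈ Cent F) :
    g ∈ Subgroup.closure {x : Q3 F | (∀ q ∈ (CD F).Q, x * q * x⁻¹ ∈ (CD F).Q) ∧ x * x = 1} := by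
  obtain ⟨i, j, rfl⟩ := cent_card_and_forms.2 g hg
  have mem : ∀ x : Q3 F, x ∈ Cent F → x * x = 1 →
      x ∈ Subgroup.closure {x : Q3 F | (∀ q ∈ (CD F).Q, x * q * x⁻¹ ∈ (CD F).Q) ∧ x * x = 1} :=
    fun x hx h2 => Subgroup.subset_closure ⟨fun q hq => Q_normal hx hq, h2⟩
  obtain ⟨a, b, ha, hb, a2, b2, e⟩ := A_gen (a_mem (F := F) i)
  obtain ⟨u, v, w, hu, hv, hw, u2, v2, w2, e'⟩ := S_gen (Q_le_S (q_mem (F := F) j))
  rw [e, e']
  exact mul_mem (mul_mem (mem a (A_le ha) a2) (mem b (A_le hb) b2))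
    (mul_mem (mul_mem (mem u (S_le hu) u2) (mem v (S_le hv) v2)) (mem w (S_le hw) w2))

/-- The criterion, transported along an isomorphism. -/
theorem simple_of_model {G : Type*} [Group G] [Finite G] (e : G ≃* Q3 F) (T₀ : Sylow 2 G)
    (hT : ∀ g : G, g ∈ (T₀ : Subgroup G) ↔ e g ∈ (CD F).S) :
    (groupFusionSystem (T₀ : Subgroup G)).IsSimple 2 := by
  haveI : Fact (Nat.Prime 2) := ⟨Nat.prime_two⟩
  set S := (T₀ : Subgroup G) with hSdef
  let Q : Subgroup G := (CD F).Q.comap e.toMonoidHom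
  have hQ : ∀ g, g ∈ Q ↔ e g ∈ (CD F).Q := fun g => Iff.rfl
  have hQS : Q ≤ S := fun g hg => (hT g).2 (Q_le_S hg)
  have hI : IsInducedBy (groupFusionSystem S) ⊤ := groupFusion_inducedBy S
  have hnS : ∀ s ∈ S, s ∈ Subgroup.normalizer (Q : Set G) := fun s hs =>
    Subgroup.mem_normalizer_fintype fun q hq => by
      show e (s * q * s⁻¹) ∈ (CD F).Q
      rw [map_mul, map_mul, map_inv]
      exact Q_normal (S_le ((hT s).1 hs)) hq
  have hcen : (groupFusionSystem S).IsCentric Q := by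
    refine ⟨hQS, fun R hR => ?_⟩
    obtain ⟨f, hf⟩ := isConj_iff.mp hR
    obtain ⟨-, -, g, -, eg⟩ := (hI _ _).mp hf.mor
    intro x hx
    obtain ⟨-, hxc⟩ := Subgroup.mem_inf.1 hx
    have hy : g⁻¹ * x * g ∈ Q := by
      refine (hQ _).2 (centralizer_Q fun q hq => ?_)
      obtain ⟨y, rfl⟩ := e.surjective q
      have hm : cj g y ∈ R := by rw [← eg y hq]; exact hf.mapsTo hq
      have hc := Subgroup.mem_centralizer_iff.1 hxc _ hm
      rw [cj_apply] at hc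
      rw [← map_mul, ← map_mul]
      refine congrArg e ?_
      calc g⁻¹ * x * g * y = g⁻¹ * (x * (g * y * g⁻¹)) * g := by group
        _ = g⁻¹ * ((g * y * g⁻¹) * x) * g := by rw [hc]
        _ = y * (g⁻¹ * x * g) := by group
    have := hf.mapsTo hy
    rwa [eg _ hy, cj_apply, show g * (g⁻¹ * x * g) * g⁻¹ = x by group] at this
  have hfn : (groupFusionSystem S).IsFullyNormalized Q := by
    refine ⟨hQS, fun R _ => Nat.card_mono (Set.toFinite _) ?_⟩
    intro x hx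
    have hxS : x ∈ S := (Subgroup.mem_inf.1 hx).1
    exact Subgroup.mem_inf.2 ⟨hxS, hnS x hxS⟩
  have hS1 : S ≠ ⊥ := by
    intro h
    obtain ⟨y, hy⟩ := e.surjective (tQ F)
    obtain ⟨-, -, -, -, -, -, -, -, -, -, -, -, -, u, hu, eu⟩ := misc2
    have ht : (CD F).s ⟨u, hu⟩ = tQ F :=
      ((CD F).s_rep _).uniq (by show Rep (tQ F) (sM2 u); rw [eu]; exact tQ_spec.1)
    have : y ∈ S := (hT y).2 (by rw [hy, ← ht]; exact s_mem _)
    rw [h, Subgroup.mem_bot] at this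
    rw [this, map_one] at hy
    have ho := tQ_spec (F := F) |>.2
    rw [← hy, orderOf_one] at ho
    omega
  refine group_isSimple' T₀ hS1 (fun T hcl => ?_) ?_
  · rcases eq_or_ne T ⊥ with h0 | h0
    · exact Or.inl h0
    refine Or.inr (le_antisymm hcl.1 ?_)
    have hTp : IsPGroup 2 T := T₀.isPGroup'.to_le hcl.1
    obtain ⟨z, hz⟩ : ∃ z : T, orderOf z = 2 := by
      obtain ⟨n, hn⟩ := IsPGroup.iff_card.mp hTp
      have hn0 : n ≠ 0 := fun c => h0 (Subgroup.card_eq_one.1 (by rw [hn, c, pow_zero]))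
      exact exists_prime_orderOf_dvd_card' 2 (hn ▸ dvd_pow_self 2 hn0)
    have hz2 : orderOf (e (z : G)) = 2 := by rw [MulEquiv.orderOf_eq, Subgroup.orderOf_coe, hz]
    have inv_mem_T : ∀ s ∈ S, s * s = 1 → s ∈ T := by
      intro s hs hs2
      rcases eq_or_ne s 1 with rfl | hs1
      · exact one_mem T
      have hos : orderOf (e s) = 2 := by
        rw [MulEquiv.orderOf_eq]; exact orderOf_eq_prime (by rw [sq, hs2]) hs1
      refine stronglyClosed_conj_mem hcl z.2 hs ?_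
      have hc := (invol_conj hz2).symm.trans (invol_conj hos)
      simpa using MonoidHom.map_isConj e.symm.toMonoidHom hc
    intro s hs
    obtain ⟨a, b, c, ha, hb, hc, a2, b2, c2, he⟩ := S_gen ((hT s).1 hs)
    have aux : ∀ x ∈ (CD F).S, x * x = 1 → e.symm x ∈ T := fun x hx h2 =>
      inv_mem_T _ ((hT _).2 (by rwa [e.apply_symm_apply])) (by rw [← map_mul, h2, map_one])
    have : e.symm (a * b * c) = s := by rw [← he, e.symm_apply_apply]
    rw [← this, map_mul, map_mul]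
    exact mul_mem (mul_mem (aux a ha a2) (aux b hb b2)) (aux c hc c2)
  · rw [autInducedBy, Subgroup.closure_le]
    rintro α ⟨g, -, hg⟩
    have hgS : ∀ s ∈ (CD F).S, e g * s * (e g)⁻¹ ∈ (CD F).S := by
      intro s hs
      obtain ⟨y, rfl⟩ := e.surjective s
      have := (α ⟨y, (hT y).2 hs⟩).2
      rw [hg] at this
      simpa using (hT _).1 this
    have hgc := Cent_gen (norm_S hgS)
    refine Subgroup.mem_iSup_of_mem Q (Subgroup.mem_iSup_of_mem ⟨hfn, hcen⟩ ?_)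
    refine Subgroup.subset_closure ⟨g, ?_, hg⟩
    have hle : Subgroup.closure {x : Q3 F | (∀ q ∈ (CD F).Q, x * q * x⁻¹ ∈ (CD F).Q) ∧ x * x = 1} ≤
        (Subgroup.closure {g : G | g ∈ Subgroup.normalizer (Q : Set G) ∧ ∃ k : ℕ, orderOf g = 2 ^ k}).map
          e.toMonoidHom := by
      rw [Subgroup.closure_le]
      rintro x ⟨hx, hx2⟩
      obtain ⟨y, rfl⟩ := e.surjective x
      refine ⟨y, Subgroup.subset_closure ⟨Subgroup.mem_normalizer_fintype fun q hq => ?_, ?_⟩, rfl⟩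
      · show e (y * q * y⁻¹) ∈ (CD F).Q
        rw [map_mul, map_mul, map_inv]
        exact hx _ hq
      · have hy : y ^ 2 = 1 := e.injective (by rw [map_pow, sq, hx2, map_one])
        rcases (Nat.dvd_prime Nat.prime_two).1 (orderOf_dvd_of_pow_eq_one hy) with h | h
        · exact ⟨0, by rw [h, pow_zero]⟩
        · exact ⟨1, by rw [h, pow_one]⟩
    obtain ⟨y, hy, he⟩ := hle hgc
    obtain rfl : y = g := e.injective he
    exact hy

theorem fusion_simple {G : Type*} [Group G] [Finite G] (e : G ≃* Q3 F) (T : Sylow 2 G) :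
    (groupFusionSystem (T : Subgroup G)).IsSimple 2 := by
  haveI : Fact (Nat.Prime 2) := ⟨Nat.prime_two⟩
  haveI := finite_Q3 (F := F)
  obtain ⟨P, hP⟩ := sylow_two (F := F)
  let P' : Sylow 2 G := P.comapOfInjective e.toMonoidHom e.injective (by
    rw [MonoidHom.range_eq_top.2 e.surjective]; exact le_top)
  obtain ⟨c, hc⟩ := MulAction.exists_smul_eq G P' T
  refine simple_of_model ((MulAut.conj c⁻¹).trans e) T fun g => ?_
  rw [← hc]
  show g ∈ (P' : Subgroup G).map (MulAut.conj c).toMonoidHom ↔ e (MulAut.conj c⁻¹ g) ∈ (CD F).S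
  rw [Subgroup.mem_map_equiv, ← hP]
  simp only [map_inv, MulAut.inv_def]
  rfl

end Cfsg.Agent.Janko3
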